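import Mathlib
import Cfsg.Agent.Lib.PGroup.Basic

/-! Transfer for Wielandt triples with abelian quotient. -/

set_option autoImplicit false
open Subgroup

namespace H71

/-- If `H ⊴ M`, `M/H` is abelian and `M ∩ M^g ≤ H` for `g ∉ M`, then some normal subgroup of `G`
meets `M` exactly in `H` (kernel of the transfer). -/
theorem exists_normal_inf_eq {G : Type*} [Group G] [Finite G] {H M : Subgroup G} (hHM : H ≤ M)
    (hc : ⁅M, M⁆ ≤ H)
    (hW : ∀ g, g ∉ M → ∀ x ∈ M, g⁻¹ * x * g ∈ M → g⁻¹ * x * g ∈ H) :
    ∃ K : Subgroup G, K.Normal ∧ K ⊓ M = H ∧ _root_.commutator G ≤ K := by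
  classical
  have hle : _root_.commutator M ≤ H.subgroupOf M := by
    rw [_root_.commutator_def, commutator_le]
    intro a _ b _
    exact hc (commutator_mem_commutator a.2 b.2)
  haveI hn : (H.subgroupOf M).Normal := ⟨fun n hn g => by
    have := mul_mem (hle (commutator_mem_commutator (mem_top g) (mem_top n))) hn
    simpa [commutatorElement_def] using this⟩
  letI : CommGroup (M ⧸ H.subgroupOf M) :=
    { (inferInstance : Group (M ⧸ H.subgroupOf M)) with
      mul_comm := (Normal.quotient_commutative_iff_commutator_le.2 hle).is_comm.comm }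
  let φ : M →* M ⧸ H.subgroupOf M := QuotientGroup.mk' _
  have key : ∀ x (hx : x ∈ M), MonoidHom.transfer φ x = φ ⟨x, hx⟩ := by
    intro x hx
    haveI := Fintype.ofFinite (Quotient (MulAction.orbitRel (zpowers x) (G ⧸ M)))
    rw [MonoidHom.transfer_eq_prod_quotient_orbitRel_zpowers_quot]
    have hfix : x • ((1 : G) : G ⧸ M) = ((1 : G) : G ⧸ M) := by
      rw [MulAction.Quotient.smul_mk, QuotientGroup.eq]; simpa using hx
    have hout : ∀ q : Quotient (MulAction.orbitRel (zpowers x) (G ⧸ M)),
        q = Quotient.mk _ ((1 : G) : G ⧸ M) ↔ q.out.out ∈ M := by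
      intro q
      constructor
      · intro hq
        have h1 : q.out ∈ MulAction.orbit (zpowers x) ((1 : G) : G ⧸ M) := by
          rw [← MulAction.orbitRel_apply]
          exact Quotient.exact (by rw [Quotient.out_eq]; exact hq)
        obtain ⟨⟨_, k, rfl⟩, hk⟩ := h1
        have h2 : q.out = ((x ^ k : G) : G ⧸ M) := by
          rw [← hk]
          show (x ^ k) • ((1 : G) : G ⧸ M) = _
          rw [MulAction.Quotient.smul_mk]; simp
        have h3 := QuotientGroup.eq.1 ((QuotientGroup.out_eq' q.out).trans h2)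
        have h4 := mul_mem h3 (inv_mem (zpow_mem hx k))
        simpa using h4
      · intro hq
        have h2 : q.out = ((1 : G) : G ⧸ M) := by
          rw [← QuotientGroup.out_eq' q.out, QuotientGroup.eq]; simpa using hq
        rw [← h2, Quotient.out_eq]
    rw [Finset.prod_eq_single (Quotient.mk _ ((1 : G) : G ⧸ M))]
    · set q : Quotient (MulAction.orbitRel (zpowers x) (G ⧸ M)) :=
        Quotient.mk _ ((1 : G) : G ⧸ M) with hq
      have hm := (hout q).1 hq
      have h2 : q.out = ((1 : G) : G ⧸ M) := by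
        rw [← QuotientGroup.out_eq' q.out, QuotientGroup.eq]; simpa using hm
      have h3 : Function.minimalPeriod (fun a => x • a) q.out = 1 := by
        rw [Function.minimalPeriod_eq_one_iff_isFixedPt, h2]; exact hfix
      have : (⟨q.out.out⁻¹ * x ^ Function.minimalPeriod (fun a => x • a) q.out * q.out.out,
          QuotientGroup.out_conj_pow_minimalPeriod_mem M x q.out⟩ : M) =
          (⟨_, hm⟩ : M)⁻¹ * ⟨x, hx⟩ * ⟨_, hm⟩ := Subtype.ext (by simp [h3])
      rw [this, map_mul, map_mul, map_inv, mul_comm, mul_inv_cancel_left]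
    · intro q _ hq
      have h1 := mt (hout q).2 hq
      apply (QuotientGroup.eq_one_iff _).2
      exact hW _ h1 _ (pow_mem hx _) (QuotientGroup.out_conj_pow_minimalPeriod_mem M x q.out)
    · intro h; exact absurd (Finset.mem_univ _) h
  refine ⟨(MonoidHom.transfer φ).ker, inferInstance, le_antisymm ?_ ?_,
    Abelianization.commutator_subset_ker _⟩
  · rintro x ⟨h1, h2⟩
    have := (key x h2).symm.trans h1
    exact (QuotientGroup.eq_one_iff (⟨x, h2⟩ : M)).1 this
  · intro x hx
    refine ⟨?_, hHM hx⟩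
    show MonoidHom.transfer φ x = 1
    rw [key x (hHM hx)]
    exact (QuotientGroup.eq_one_iff _).2 hx

theorem between_of_isCoatom {G : Type*} [Group G] {H M : Subgroup G}
    (h : IsCoatom (H.subgroupOf M)) (K : Subgroup G) (h1 : H ≤ K) (h2 : K ≤ M) :
    K = H ∨ K = M := by
  have hle : H.subgroupOf M ≤ K.subgroupOf M := comap_mono h1
  rcases hle.eq_or_lt with e | e
  · left
    refine le_antisymm (fun x hx => ?_) h1
    have : (⟨x, h2 hx⟩ : M) ∈ K.subgroupOf M := hx
    rw [← e] at this; exact this
  · right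
    exact le_antisymm h2 (subgroupOf_eq_top.1 (h.2 _ e))

theorem sup_zpowers_eq_of_between {G : Type*} [Group G] {H M : Subgroup G} (hHM : H ≤ M)
    (hmax : ∀ K, H ≤ K → K ≤ M → K = H ∨ K = M) {x : G} (hx : x ∈ M) (hxH : x ∉ H) :
    H ⊔ zpowers x = M := by
  refine (hmax _ le_sup_left (sup_le hHM (zpowers_le.2 hx))).resolve_left fun e => hxH ?_
  rw [← e]; exact mem_sup_right (mem_zpowers x)

/-- A maximal subgroup `H` of `M` which is normal in `M` contains `[M, M]`. -/
theorem commutator_le_of_between {G : Type*} [Group G] {H M : Subgroup G} (hHM : H ≤ M)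
    (hn : M ≤ normalizer (H : Set G)) (hmax : ∀ K, H ≤ K → K ≤ M → K = H ∨ K = M) :
    ⁅M, M⁆ ≤ H := by
  rw [commutator_le]
  intro a ha b hb
  by_cases h : a ∈ H
  · have := mul_mem h ((mem_normalizer_iff.1 (hn hb) a⁻¹).1 (inv_mem h))
    simpa [commutatorElement_def, mul_assoc] using this
  rw [← sup_zpowers_eq_of_between hHM hmax ha h, H5.mem_sup_zpowers_iff (hn ha)] at hb
  obtain ⟨k, hk, i, rfl⟩ := hb
  have := mul_mem ((mem_normalizer_iff.1 (hn ha) k).1 hk) (inv_mem hk)
  convert this using 1
  rw [commutatorElement_def]; group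

end H71
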